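import Cfsg.Agent.CharInd.Clifford
import Cfsg.Agent.CharInd.Induced
import Cfsg.Agent.BlkChar.PPrimeConstituent
import Cfsg.Agent.Char.Orthogonality
import Cfsg.Agent.Char.Kernel
import Cfsg.Agent.CharDeg.Basic
import Cfsg.Agent.Transfer.Tate
import Cfsg.Agent.Transfer.Frobenius
import Cfsg.Agent.PGroup.Frattini
import Cfsg.Agent.BlocksChar.ClassProd

/-!
The sum of the squares of the odd degrees is at least the index of the derived subgroup of a
Sylow 2-subgroup in its normalizer; the equality case.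
-/

set_option autoImplicit false
set_option maxHeartbeats 800000

open scoped ComplexConjugate
open Cfsg.Agent.Char

namespace Cfsg.Agent.OddSquareSum

universe u

variable {G : Type u} [Group G] [Finite G]

/-- The derived subgroup of the Sylow subgroup, inside the ambient group. -/
def der (P : Sylow 2 G) : Subgroup G := (commutator ↥P).map (P : Subgroup G).subtype

/-- The normalizer of the Sylow subgroup. -/
abbrev nor (P : Sylow 2 G) : Subgroup G := Subgroup.normalizer ((P : Subgroup G) : Set G)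

theorem le_nor (P : Sylow 2 G) : (P : Subgroup G) ≤ nor P := Subgroup.le_normalizer

theorem der_le (P : Sylow 2 G) : der P ≤ (P : Subgroup G) := Subgroup.map_subtype_le _

theorem der_eq (P : Sylow 2 G) : der P = ⁅(P : Subgroup G), (P : Subgroup G)⁆ := by
  rw [der, commutator_def, Subgroup.map_commutator, ← MonoidHom.range_eq_map,
    Subgroup.range_subtype]

instance der_normal (P : Sylow 2 G) : ((der P).subgroupOf (nor P)).Normal := by
  refine ⟨fun d hd n => ?_⟩
  rw [Subgroup.mem_subgroupOf] at hd ⊢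
  have h : (der P).map (MulAut.conj (n : G)).toMonoidHom = der P := by
    have hP : ((P : Subgroup G)).map (MulAut.conj (n : G)).toMonoidHom = (P : Subgroup G) := by
      ext x
      rw [Subgroup.mem_map]
      constructor
      · rintro ⟨y, hy, rfl⟩
        simpa using (Subgroup.mem_normalizer_iff.mp n.2 y).mp hy
      · intro hx
        refine ⟨(n : G)⁻¹ * x * n, ?_, by simp [mul_assoc]⟩
        refine (Subgroup.mem_normalizer_iff.mp n.2 _).mpr ?_
        simpa [mul_assoc] using hx
    rw [der_eq, Subgroup.map_commutator, hP]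
  rw [← h]
  exact ⟨d, hd, by simp⟩

theorem odd_index (P : Sylow 2 G) : ¬ 2 ∣ (nor P).index := fun h =>
  P.not_dvd_index (h.trans (Subgroup.index_dvd_of_le (le_nor P)))

theorem card_nor (P : Sylow 2 G) :
    Nat.card (nor P) = Nat.card (commutator ↥P) * ((der P).subgroupOf (nor P)).index := by
  rw [← ((der P).subgroupOf (nor P)).card_mul_index]
  congr 1
  rw [Nat.card_congr (Subgroup.subgroupOfEquivOfLe ((der_le P).trans (le_nor P))).toEquiv, der,
    Nat.card_congr ((commutator ↥P).equivMapOfInjective _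
      (P : Subgroup G).subtype_injective).toEquiv]

/-- The irreducible characters of `N / P'`. -/
abbrev Target (P : Sylow 2 G) : Type u :=
  {θ : IrrCharacter (nor P) //
    ∀ n ∈ (der P).subgroupOf (nor P), (θ : nor P → ℂ) n = (θ : nor P → ℂ) 1}

noncomputable instance (P : Sylow 2 G) : Fintype (Target P) := Fintype.ofFinite _

/-- degree of a member of the target. -/
noncomputable def dt {P : Sylow 2 G} (θ : Target P) : ℕ := charDegree ((θ.1 : nor P → ℂ))

theorem dt_pos {P : Sylow 2 G} (θ : Target P) : 0 < dt θ := by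
  obtain ⟨n, hn, h⟩ := irr_one_pos θ.1.2
  rw [BlkChar.isCharacter_one_eq_charDegree (isCharacter_of_irr θ.1.2)] at h
  have : dt θ = n := Nat.cast_injective h
  omega

theorem sum_dt_sq (P : Sylow 2 G) :
    ∑ θ : Target P, dt θ ^ 2 = ((der P).subgroupOf (nor P)).index := by
  classical
  letI := Fintype.ofFinite (nor P ⧸ (der P).subgroupOf (nor P))
  have h := sum_irr_degree_sq (G := nor P ⧸ (der P).subgroupOf (nor P))
  rw [← Subgroup.index_eq_card] at h
  have h2 : ((∑ θ : Target P, dt θ ^ 2 : ℕ) : ℂ) =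
      ((((der P).subgroupOf (nor P)).index : ℕ) : ℂ) := by
    rw [← h, Nat.cast_sum]
    refine (Fintype.sum_equiv (irrEquivQuotient ((der P).subgroupOf (nor P))) _ _ fun ψ => ?_).symm
    rw [dt, Nat.cast_pow, ← BlkChar.isCharacter_one_eq_charDegree (isCharacter_of_irr
      (irrEquivQuotient ((der P).subgroupOf (nor P)) ψ).1.2), irrEquivQuotient_apply]
    simp
  exact_mod_cast h2

theorem dt_odd {P : Sylow 2 G} (θ : Target P) : ¬ 2 ∣ dt θ := by
  intro h2
  obtain ⟨ψ, hψ⟩ := (irrEquivQuotient ((der P).subgroupOf (nor P))).surjective θ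
  set π := QuotientGroup.mk' ((der P).subgroupOf (nor P)) with hπ
  set A : Subgroup (nor P ⧸ (der P).subgroupOf (nor P)) :=
    ((P : Subgroup G).subgroupOf (nor P)).map π with hA
  haveI hPn : ((P : Subgroup G).subgroupOf (nor P)).Normal := Subgroup.normal_in_normalizer
  haveI : A.Normal := hPn.map π (QuotientGroup.mk'_surjective _)
  have hab : ∀ a ∈ A, ∀ b ∈ A, a * b = b * a := by
    rintro _ ⟨x, hx, rfl⟩ _ ⟨y, hy, rfl⟩
    rw [← map_mul, ← map_mul, hπ, QuotientGroup.mk'_eq_mk']
    refine ⟨(x * y)⁻¹ * (y * x), ?_, by group⟩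
    rw [Subgroup.mem_subgroupOf, der_eq]
    rw [SetLike.mem_coe, Subgroup.mem_subgroupOf] at hx hy
    have := Subgroup.commutator_mem_commutator (inv_mem hy) (inv_mem hx)
    rw [commutatorElement_def] at this
    simpa [mul_assoc] using this
  have h := CharDeg.charDegree_dvd_index A hab ψ
  have heq : dt θ = charDegree (ψ : (nor P ⧸ (der P).subgroupOf (nor P)) → ℂ) := by
    rw [← hψ, dt, charDegree, charDegree, irrEquivQuotient_apply]
    simp
  have h3 : A.index ∣ ((P : Subgroup G).subgroupOf (nor P)).index :=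
    Subgroup.index_map_dvd _ (QuotientGroup.mk'_surjective _)
  exact (P.subtype (le_nor P)).not_dvd_index ((heq ▸ h2).trans (h.trans h3))

theorem exists_over {P : Sylow 2 G} [Fintype G] [Fintype (nor P)] (θ : Target P) :
    ∃ χ : IrrCharacter G, ¬ 2 ∣ charDegree (χ : G → ℂ) ∧
      classInner (fun n : nor P => (χ : G → ℂ) n) (θ.1 : nor P → ℂ) ≠ 0 := by
  have hch : IsCharacter G (indFun (nor P) (θ.1 : nor P → ℂ)) :=
    CharInd.isCharacter_indFun (nor P) (isCharacter_of_irr θ.1.2)
  have hdeg : charDegree (indFun (nor P) (θ.1 : nor P → ℂ)) = (nor P).index * dt θ := by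
    have := BlkChar.isCharacter_one_eq_charDegree hch
    rw [CharInd.indFun_one_apply,
      BlkChar.isCharacter_one_eq_charDegree (isCharacter_of_irr θ.1.2), ← Nat.cast_mul] at this
    exact (Nat.cast_injective this).symm
  have hodd : ¬ 2 ∣ (nor P).index * dt θ := fun h =>
    (Nat.prime_two.dvd_mul.mp h).elim (odd_index P) (dt_odd θ)
  obtain ⟨χ, hχ, hne⟩ := BlkChar.exists_constituent_not_dvd (p := 2) hch (hdeg ▸ hodd)
  refine ⟨χ, hχ, fun h0 => hne ?_⟩
  rw [CharInd.classInner_indFun_left _ _ (irr_isClassFunction χ.2), ← classInner_conj, h0, map_zero]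

/-- Restriction to the normalizer: the total degree of distinct constituents in the target is at
most the degree, with equality for a single constituent only if the restriction equals it. -/
theorem restrict_bound {P : Sylow 2 G} [Fintype G] [Fintype (nor P)] (χ : IrrCharacter G)
    (s : Finset (Target P))
    (hs : ∀ θ ∈ s, classInner (fun n : nor P => (χ : G → ℂ) n) (θ.1 : nor P → ℂ) ≠ 0) :
    ∑ θ ∈ s, dt θ ≤ charDegree (χ : G → ℂ) ∧
      ∀ θ ∈ s, charDegree (χ : G → ℂ) = dt θ →
        ∀ n : nor P, (χ : G → ℂ) n = (θ.1 : nor P → ℂ) n := by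
  classical
  have hres : IsCharacter (nor P) (fun n : nor P => (χ : G → ℂ) n) :=
    isCharacter_restrict (isCharacter_of_irr χ.2) _
  obtain ⟨m, hm, hm'⟩ := isCharacter_exists_coeff hres
  set d : IrrCharacter (nor P) → ℕ := fun ψ => charDegree (ψ : nor P → ℂ) with hd
  have hdpos : ∀ ψ, 0 < d ψ := fun ψ => by
    obtain ⟨n, hn, h⟩ := irr_one_pos ψ.2
    rw [BlkChar.isCharacter_one_eq_charDegree (isCharacter_of_irr ψ.2)] at h
    have : d ψ = n := Nat.cast_injective h
    omega
  have htot : charDegree (χ : G → ℂ) = ∑ ψ, m ψ * d ψ := by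
    have h1 := congrFun hm 1
    simp only [Finset.sum_apply, Pi.smul_apply, OneMemClass.coe_one, nsmul_eq_mul,
      BlkChar.isCharacter_one_eq_charDegree (isCharacter_of_irr χ.2)] at h1
    have h2 : ((charDegree (χ : G → ℂ) : ℕ) : ℂ) = ((∑ ψ, m ψ * d ψ : ℕ) : ℂ) := by
      rw [h1, Nat.cast_sum]
      exact Finset.sum_congr rfl fun ψ _ => by
        rw [Nat.cast_mul, ← BlkChar.isCharacter_one_eq_charDegree (isCharacter_of_irr ψ.2)]
        simp
    exact_mod_cast h2
  have hm1 : ∀ θ ∈ s, 1 ≤ m θ.1 := fun θ hθ => by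
    rcases Nat.eq_zero_or_pos (m θ.1) with h | h
    · exact absurd (by rw [hm', h, Nat.cast_zero]) (hs θ hθ)
    · exact h
  refine ⟨?_, fun θ hθ heq n => ?_⟩
  · rw [htot]
    calc ∑ θ ∈ s, dt θ = ∑ ψ ∈ s.image Subtype.val, d ψ := by
          rw [Finset.sum_image fun a _ b _ h => Subtype.ext h]; rfl
      _ ≤ ∑ ψ ∈ s.image Subtype.val, m ψ * d ψ := by
          refine Finset.sum_le_sum fun ψ hψ => ?_
          obtain ⟨θ, hθ, rfl⟩ := Finset.mem_image.mp hψ
          exact Nat.le_mul_of_pos_left _ (hm1 θ hθ)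
      _ ≤ ∑ ψ, m ψ * d ψ :=
          Finset.sum_le_sum_of_subset_of_nonneg (Finset.subset_univ _) fun _ _ _ => Nat.zero_le _
  · have hsplit : m θ.1 * d θ.1 + ∑ ψ ∈ Finset.univ.erase θ.1, m ψ * d ψ = d θ.1 := by
      rw [Finset.add_sum_erase _ (fun ψ => m ψ * d ψ) (Finset.mem_univ _), ← htot, heq]; rfl
    have hle := Nat.le_mul_of_pos_left (d θ.1) (hm1 θ hθ)
    have h0 : ∑ ψ ∈ Finset.univ.erase θ.1, m ψ * d ψ = 0 := by omega
    have hmθ : m θ.1 = 1 := by
      have h3 : m θ.1 * d θ.1 = 1 * d θ.1 := by omega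
      exact Nat.eq_of_mul_eq_mul_right (hdpos θ.1) h3
    have h1 : ∀ ψ, ψ ≠ θ.1 → m ψ = 0 := fun ψ hψ => by
      have := Finset.sum_eq_zero_iff.mp h0 ψ (Finset.mem_erase.mpr ⟨hψ, Finset.mem_univ _⟩)
      exact (mul_eq_zero.mp this).resolve_right (hdpos ψ).ne'
    have h2 := congrFun hm n
    rw [Finset.sum_apply, Finset.sum_eq_single θ.1 (fun ψ _ hψ => by simp [h1 ψ hψ])
      (fun h => absurd (Finset.mem_univ _) h)] at h2
    simpa [hmθ] using h2

/-- The sum of the squares of the odd degrees. -/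
noncomputable def oddSum (G : Type u) [Group G] : ℕ :=
  ∑ᶠ χ : {χ : IrrCharacter G // ¬ 2 ∣ charDegree (χ : G → ℂ)}, charDegree (χ.1 : G → ℂ) ^ 2

theorem oddSum_eq [DecidableEq (IrrCharacter G)]
    [DecidablePred fun χ : IrrCharacter G => ¬ 2 ∣ charDegree (χ : G → ℂ)] :
    oddSum G = ∑ χ ∈ (Finset.univ : Finset (IrrCharacter G)).filter
      (fun χ : IrrCharacter G => ¬ 2 ∣ charDegree (χ : G → ℂ)), charDegree (χ : G → ℂ) ^ 2 := by
  rw [oddSum, finsum_eq_sum_of_fintype]
  exact (Finset.sum_subtype _ (by simp) (fun χ : IrrCharacter G => charDegree (χ : G → ℂ) ^ 2)).symm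

/-- The inequality, and extensions in the equality case. -/
theorem main_bound (P : Sylow 2 G) :
    ((der P).subgroupOf (nor P)).index ≤ oddSum G ∧
      (((der P).subgroupOf (nor P)).index = oddSum G → ∀ θ : Target P, ∃ χ : IrrCharacter G,
        ∀ n : nor P, (χ : G → ℂ) n = (θ.1 : nor P → ℂ) n) := by
  classical
  letI := Fintype.ofFinite G
  choose f hfodd hfne using fun θ : Target P => exists_over θ
  set O := (Finset.univ : Finset (IrrCharacter G)).filter
    (fun χ : IrrCharacter G => ¬ 2 ∣ charDegree (χ : G → ℂ)) with hO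
  have hmaps : ∀ θ ∈ (Finset.univ : Finset (Target P)), f θ ∈ O := fun θ _ =>
    Finset.mem_filter.mpr ⟨Finset.mem_univ _, hfodd θ⟩
  have hsum : ∑ χ ∈ O, ∑ θ ∈ Finset.univ.filter (fun θ : Target P => f θ = χ), dt θ ^ 2 =
      ((der P).subgroupOf (nor P)).index := by
    rw [Finset.sum_fiberwise_of_maps_to hmaps (fun θ => dt θ ^ 2), sum_dt_sq]
  have hfib : ∀ χ : IrrCharacter G,
      ∑ θ ∈ Finset.univ.filter (fun θ : Target P => f θ = χ), dt θ ≤ charDegree (χ : G → ℂ) :=
    fun χ => (restrict_bound χ _ fun θ hθ => by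
      have := (Finset.mem_filter.mp hθ).2
      subst this
      exact hfne θ).1
  have hsq : ∀ χ ∈ O, ∑ θ ∈ Finset.univ.filter (fun θ : Target P => f θ = χ), dt θ ^ 2 ≤
      charDegree (χ : G → ℂ) ^ 2 := fun χ _ => by
    refine le_trans ?_ (Nat.pow_le_pow_left (hfib χ) 2)
    exact Finset.sum_sq_le_sq_sum_of_nonneg fun _ _ => Nat.zero_le _
  rw [oddSum_eq, ← hO]
  refine ⟨hsum ▸ Finset.sum_le_sum hsq, fun heq θ₀ => ⟨f θ₀, ?_⟩⟩
  have hterm := (Finset.sum_eq_sum_iff_of_le hsq).mp (hsum.trans heq) (f θ₀)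
    (hmaps θ₀ (Finset.mem_univ _))
  set F := Finset.univ.filter (fun θ : Target P => f θ = f θ₀) with hF
  have hθF : θ₀ ∈ F := by simp [hF]
  have hd : ∀ θ ∈ F, dt θ ^ 2 ≤ dt θ * charDegree (f θ₀ : G → ℂ) := fun θ hθ => by
    rw [sq]
    exact Nat.mul_le_mul_left _ ((Finset.single_le_sum (fun _ _ => Nat.zero_le _) hθ).trans
      (hfib (f θ₀)))
  have h2 : ∑ θ ∈ F, dt θ * charDegree (f θ₀ : G → ℂ) ≤ charDegree (f θ₀ : G → ℂ) ^ 2 := by
    rw [← Finset.sum_mul, sq]
    exact Nat.mul_le_mul_right _ (hfib (f θ₀))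
  have h3 := (Finset.sum_eq_sum_iff_of_le hd).mp
    (le_antisymm (Finset.sum_le_sum hd) (h2.trans hterm.ge)) θ₀ hθF
  rw [sq] at h3
  have h4 : dt θ₀ = charDegree (f θ₀ : G → ℂ) := Nat.eq_of_mul_eq_mul_left (dt_pos θ₀) h3
  exact (restrict_bound (f θ₀) {θ₀} (by simp [hfne θ₀])).2 θ₀ (Finset.mem_singleton_self _) h4.symm

end Cfsg.Agent.OddSquareSum
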