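import Cfsg.Agent.OddSquareSum.Basic

/-!
In the equality case the normalizer has a normal complement.
-/

set_option autoImplicit false
set_option maxHeartbeats 800000

open Cfsg.Agent.Char

namespace Cfsg.Agent.OddSquareSum

universe u

variable {G : Type u} [Group G] [Finite G]

theorem exists_complement_of_extends (P : Sylow 2 G)
    (hext : ∀ θ : Target P, ∃ χ : IrrCharacter G,
      ∀ n : nor P, (χ : G → ℂ) n = (θ.1 : nor P → ℂ) n) :
    ∃ K : Subgroup G, K.Normal ∧ K ⊓ nor P = ⊥ ∧ K ⊔ nor P = ⊤ := by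
  classical
  haveI : Fact (Nat.Prime 2) := ⟨Nat.prime_two⟩
  choose χ hχ using hext
  choose Kf hKn hKmem using fun θ : Target P =>
    isCharacter_exists_kernel (isCharacter_of_irr (χ θ).2)
  set M : Subgroup G := ⨅ θ, Kf θ with hM
  haveI : M.Normal := Subgroup.normal_iInf_normal hKn
  set H : Subgroup G := Subgroup.normalClosure ((P : Subgroup G) : Set G) with hH
  haveI : H.Normal := Subgroup.normalClosure_normal
  have hPH : (P : Subgroup G) ≤ H := Subgroup.subset_normalClosure
  have hval : ∀ (θ : Target P) (n : nor P), (n : G) ∈ Kf θ →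
      (θ.1 : nor P → ℂ) n = (θ.1 : nor P → ℂ) 1 := fun θ n hn => by
    rw [← hχ θ n, ← hχ θ 1, (hKmem θ _).mp hn, Subgroup.coe_one]
  have hDM : der P ≤ M := fun d hd => by
    refine Subgroup.mem_iInf.mpr fun θ => (hKmem θ d).mpr ?_
    have hdn : d ∈ nor P := le_nor P (der_le P hd)
    have h1 := θ.2 ⟨d, hdn⟩ (Subgroup.mem_subgroupOf.mpr hd)
    rw [← hχ θ ⟨d, hdn⟩, ← hχ θ 1] at h1
    simpa using h1
  haveI hPn : ((P : Subgroup G).subgroupOf (nor P)).Normal := Subgroup.normal_in_normalizer
  -- the normalizer in `H` is the Sylow subgroup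
  have hNH : ∀ x ∈ H, x ∈ nor P → x ∈ (P : Subgroup G) := fun x hxH hxN => by
    have h := (mem_normal_iff_forall_irr ((P : Subgroup G).subgroupOf (nor P))
      (⟨x, hxN⟩ : nor P)).mpr fun θ hθ => ?_
    · exact h
    · let θ' : Target P := ⟨θ, fun n hn => hθ n (Subgroup.mem_subgroupOf.mpr
        (der_le P (Subgroup.mem_subgroupOf.mp hn)))⟩
      haveI := hKn θ'
      have hle : H ≤ Kf θ' := Subgroup.normalClosure_le_normal fun q hq => by
        refine (hKmem θ' q).mpr ?_
        have h1 := hθ ⟨q, le_nor P hq⟩ (Subgroup.mem_subgroupOf.mpr hq)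
        have h2 := hχ θ' ⟨q, le_nor P hq⟩
        have h3 := hχ θ' 1
        simp only [OneMemClass.coe_one] at h3
        rw [h3]
        exact h2.trans h1
      exact hval θ' ⟨x, hxN⟩ (hle hxH)
  set PH : Sylow 2 H := P.subtype hPH with hPHd
  have hPHmem : ∀ x : H, x ∈ (PH : Subgroup H) ↔ (x : G) ∈ (P : Subgroup G) := fun x => Iff.rfl
  -- the image of `H` modulo `M`
  set φ : H →* (G ⧸ M) := (QuotientGroup.mk' M).comp H.subtype with hφ
  set ψ : H →* φ.range := φ.rangeRestrict with hψ
  have hψs : Function.Surjective ψ := φ.rangeRestrict_surjective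
  set Q : Sylow 2 φ.range := PH.mapSurjective hψs with hQd
  have hQcoe : (Q : Subgroup φ.range) = (PH : Subgroup H).map ψ := rfl
  have hψ1 : ∀ x : H, ψ x = 1 ↔ (x : G) ∈ M := fun x => by
    rw [← MonoidHom.mem_ker, hψ, MonoidHom.ker_rangeRestrict, MonoidHom.mem_ker, hφ,
      MonoidHom.comp_apply, QuotientGroup.mk'_apply, QuotientGroup.eq_one_iff, Subgroup.subtype_apply]
  have hNPC : Cfsg.HasNormalPComplement 2 φ.range := by
    refine Transfer.hasNormalPComplement_of_normalizer_le_centralizer Q ?_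
    intro g hg
    obtain ⟨g, rfl⟩ := hψs g
    -- normalising elements lie in the preimage of the Sylow subgroup
    set Y : Subgroup H := (Q : Subgroup φ.range).comap ψ with hY
    have hPY : (PH : Subgroup H) ≤ Y := fun x hx => by
      rw [hY, Subgroup.mem_comap, hQcoe]; exact Subgroup.mem_map_of_mem _ hx
    have hgP : ((g • PH : Sylow 2 H) : Subgroup H) ≤ Y := fun x hx => by
      rw [Sylow.coe_subgroup_smul, Subgroup.mem_pointwise_smul_iff_inv_smul_mem] at hx
      have h1 : ψ g⁻¹ * ψ x * ψ g ∈ (Q : Subgroup φ.range) := by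
        have := hPY hx
        simpa [hY, mul_assoc] using this
      have h2 := (Subgroup.mem_normalizer_iff.mp hg _).mp h1
      rw [hY, Subgroup.mem_comap]
      simpa [mul_assoc] using h2
    obtain ⟨y, hy⟩ := MulAction.exists_smul_eq ↥Y ((g • PH).subtype hgP) (PH.subtype hPY)
    rw [Sylow.smul_subtype] at hy
    have h3 := Sylow.subtype_injective hy
    rw [Subgroup.smul_def, smul_smul] at h3
    have h4 := Sylow.smul_eq_iff_mem_normalizer.mp h3
    have h5 : (y : H) * g ∈ (PH : Subgroup H) := by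
      rw [hPHmem]
      refine hNH _ (SetLike.coe_mem _) ?_
      rw [Subgroup.mem_normalizer_iff]
      intro h
      constructor
      · intro hh
        have := (Subgroup.mem_normalizer_iff.mp h4 ⟨h, hPH hh⟩).mp hh
        simpa [hPHmem] using this
      · intro hh
        have hH' : h ∈ H := by
          have h6 := (inferInstance : H.Normal).conj_mem _ (hPH hh) (((y : H) * g : H) : G)⁻¹
          simpa [mul_assoc] using h6
        exact (Subgroup.mem_normalizer_iff.mp h4 ⟨h, hH'⟩).mpr (by simpa [hPHmem] using hh)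
    have hgY : g ∈ Y := by
      have := mul_mem (inv_mem y.2) (hPY h5)
      simpa using this
    rw [hY, Subgroup.mem_comap, hQcoe, Subgroup.mem_map] at hgY
    obtain ⟨a, ha, hag⟩ := hgY
    rw [Subgroup.mem_centralizer_iff]
    intro b hb
    rw [SetLike.mem_coe, hQcoe, Subgroup.mem_map] at hb
    obtain ⟨c, hc, rfl⟩ := hb
    rw [← hag, ← map_mul, ← map_mul, ← inv_mul_eq_one, ← map_inv, ← map_mul, hψ1]
    refine hDM ?_
    rw [der_eq]
    rw [hPHmem] at ha hc
    have h7 := Subgroup.commutator_mem_commutator (inv_mem ha) (inv_mem hc)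
    rw [commutatorElement_def] at h7
    simpa [mul_assoc] using h7
  -- the residual of `H`
  set R0 : Subgroup H := Cfsg.pResidual 2 H with hR0
  set R : Subgroup G := R0.map H.subtype with hR
  haveI : R0.Characteristic := Transfer.pResidual_characteristic
  haveI hRn : R.Normal := ConjAct.normal_of_characteristic_of_normal
  have hRP : ∀ x : H, x ∈ R0 → x ∈ (PH : Subgroup H) → (x : G) ∈ der P := fun x hx hxP => by
    have h1 : ψ x ∈ Cfsg.pResidual 2 φ.range :=
      Transfer.map_pResidual_le ψ (Subgroup.mem_map_of_mem _ hx)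
    have h2 : ψ x ∈ (Q : Subgroup φ.range) := by
      rw [hQcoe]; exact Subgroup.mem_map_of_mem _ hxP
    have h3 : ψ x = 1 := by
      have := (Transfer.hasNormalPComplement_iff_disjoint Q).mp hNPC
      exact Subgroup.mem_bot.mp (this ▸ Subgroup.mem_inf.mpr ⟨h1, h2⟩)
    rw [hψ1] at h3
    have hxN : (x : G) ∈ nor P := le_nor P hxP
    have h4 := (mem_normal_iff_forall_irr ((der P).subgroupOf (nor P))
      (⟨x, hxN⟩ : nor P)).mpr fun θ hθ => hval ⟨θ, hθ⟩ ⟨x, hxN⟩ (Subgroup.mem_iInf.mp h3 _)
    exact h4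
  have hTate : Cfsg.HasNormalPComplement 2 R := by
    refine Transfer.hasNormalPComplement_of_inf_le_frattini P R fun x hx => ?_
    obtain ⟨⟨y, hy, rfl⟩, hxP⟩ := hx
    exact Subgroup.map_mono (PGroup.commutator_le_frattini P.isPGroup') (hRP y hy hxP)
  have hRodd : ¬ 2 ∣ Nat.card R := by
    have hc := R0.equivMapOfInjective H.subtype H.subtype_injective
    have h1 : Cfsg.HasNormalPComplement 2 R0 := (Transfer.hasNormalPComplement_congr hc).mpr hTate
    rw [Transfer.hasNormalPComplement_iff] at h1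
    rw [← Nat.card_congr hc.toEquiv]
    have h2 : Cfsg.pResidual 2 ↥R0 = ⊤ := Transfer.pResidual_pResidual
    rwa [h2, Subgroup.card_top] at h1
  refine ⟨R, hRn, ?_, ?_⟩
  · rw [eq_bot_iff]
    rintro x ⟨hxR, hxN⟩
    obtain ⟨y, hy, rfl⟩ := hxR
    have hxP : (y : G) ∈ (P : Subgroup G) := hNH _ y.2 hxN
    obtain ⟨k, hk⟩ := P.isPGroup' ⟨(y : G), hxP⟩
    rw [Subgroup.mem_bot]
    have h1 : orderOf (y : G) ∣ 2 ^ k :=
      orderOf_dvd_of_pow_eq_one (congrArg Subtype.val hk)
    have h2 : orderOf (y : G) ∣ Nat.card R :=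
      Subgroup.orderOf_dvd_natCard _ (Subgroup.mem_map_of_mem _ hy)
    refine orderOf_eq_one_iff.mp (Nat.eq_one_of_dvd_coprimes ?_ h1 h2)
    exact Nat.Coprime.pow_left k (Nat.prime_two.coprime_iff_not_dvd.mpr hRodd)
  · have h1 : ((PH : Subgroup H).map H.subtype) = (P : Subgroup G) := by
      rw [hPHd, Sylow.coe_subtype, Subgroup.map_subgroupOf_eq_of_le hPH]
    have h2 := Sylow.normalizer_sup_eq_top PH
    rw [h1] at h2
    have h3 : H ≤ R ⊔ nor P := by
      have h4 := Transfer.pResidual_sup_sylow PH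
      have h5 := congrArg (Subgroup.map H.subtype) h4
      rw [Subgroup.map_sup, h1, ← MonoidHom.range_eq_map, Subgroup.range_subtype] at h5
      rw [← h5]
      exact sup_le_sup_left (le_nor P) _
    rw [eq_top_iff, ← h2]
    exact sup_le le_sup_right h3

end Cfsg.Agent.OddSquareSum
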