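import Cfsg.Agent.OddSquareSum.Basic
import Cfsg.Agent.Char.Virtual

/-!
With a normal complement of the Sylow normalizer, equality holds.
-/

set_option autoImplicit false
set_option maxHeartbeats 800000

open Cfsg.Agent.Char Cfsg.Agent.CharInd

namespace Cfsg.Agent.OddSquareSum

universe u

variable {G : Type u} [Group G] [Finite G]

theorem charDegree_dvd_natCard {χ : G → ℂ} (h : IsIrrCharacter G χ) :
    charDegree χ ∣ Nat.card G :=
  BlkChar.irr_charDegree_dvd_card ⟨χ, h⟩

/-- A function on a set with a 2-group action, constant on orbits, integral-valued: away from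
fixed points the sum is twice an integer. -/
theorem exists_two_mul {P K : Type*} [Group P] [Finite P] (hP : IsPGroup 2 P) [MulAction P K]
    [Fintype K] (f : K → ℂ) (hf : ∀ k, IsIntegral ℤ (f k)) (hinv : ∀ (a : P) k, f (a • k) = f k)
    (s : Finset K) (hs : ∀ k ∈ s, ∀ a : P, a • k ∈ s) (hfix : ∀ k ∈ s, ∃ a : P, a • k ≠ k) :
    ∃ w : ℂ, IsIntegral ℤ w ∧ ∑ k ∈ s, f k = 2 * w := by
  classical
  haveI : Fact (Nat.Prime 2) := ⟨Nat.prime_two⟩
  letI := Fintype.ofFinite (MulAction.orbitRel.Quotient P K)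
  rw [← Finset.sum_fiberwise s (fun k => (Quotient.mk'' k : MulAction.orbitRel.Quotient P K)) f]
  suffices h : ∀ ω : MulAction.orbitRel.Quotient P K, ∃ w : ℂ, IsIntegral ℤ w ∧
      ∑ k ∈ s.filter (fun k => (Quotient.mk'' k : MulAction.orbitRel.Quotient P K) = ω), f k
        = 2 * w by
    choose w hw hw' using h
    exact ⟨∑ ω, w ω, IsIntegral.sum _ fun ω _ => hw ω, by
      rw [Finset.mul_sum]; exact Finset.sum_congr rfl fun ω _ => hw' ω⟩
  intro ω
  set F := s.filter (fun k => (Quotient.mk'' k : MulAction.orbitRel.Quotient P K) = ω) with hF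
  rcases F.eq_empty_or_nonempty with h | ⟨k₀, hk₀⟩
  · exact ⟨0, isIntegral_zero, by simp [h]⟩
  have hk₀s : k₀ ∈ s := (Finset.mem_filter.mp hk₀).1
  have hFeq : ∀ k, k ∈ F ↔ k ∈ MulAction.orbit P k₀ := fun k => by
    rw [hF, Finset.mem_filter, ← (Finset.mem_filter.mp hk₀).2, Quotient.eq'']
    constructor
    · rintro ⟨-, h⟩
      exact MulAction.orbitRel_apply.mp h
    · intro h
      refine ⟨?_, MulAction.orbitRel_apply.mpr h⟩
      obtain ⟨a, rfl⟩ := h
      exact hs k₀ hk₀s a
  obtain ⟨j, hj⟩ := hP.card_orbit k₀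
  have hcard : F.card = 2 ^ j := by
    rw [← hj, Nat.card_coe_set_eq, Set.ncard_eq_toFinset_card']
    congr 1
    ext k
    simp [hFeq]
  have hj0 : j ≠ 0 := by
    rintro rfl
    obtain ⟨a, ha⟩ := hfix k₀ hk₀s
    have h1 : a • k₀ ∈ F := (hFeq _).mpr ⟨a, rfl⟩
    exact ha (Finset.card_le_one.mp hcard.le _ h1 _ hk₀)
  obtain ⟨i, rfl⟩ := Nat.exists_eq_succ_of_ne_zero hj0
  refine ⟨(2 ^ i : ℕ) * f k₀, IsIntegral.mul (isIntegral_of_nat _) (hf k₀), ?_⟩
  rw [Finset.sum_congr rfl (fun k hk => (by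
    obtain ⟨a, rfl⟩ := (hFeq k).mp hk
    exact hinv a k₀ : f k = f k₀)), Finset.sum_const, hcard, nsmul_eq_mul, pow_succ]
  push_cast
  ring

theorem sum_le_of_complement (P : Sylow 2 G) (K : Subgroup G) [K.Normal]
    (hinf : K ⊓ nor P = ⊥) (hsup : K ⊔ nor P = ⊤) :
    oddSum G ≤ ((der P).subgroupOf (nor P)).index := by
  classical
  haveI : Fact (Nat.Prime 2) := ⟨Nat.prime_two⟩
  letI := Fintype.ofFinite G
  have hc : K.IsComplement' (nor P) :=
    Subgroup.isComplement'_of_disjoint_and_mul_eq_univ (disjoint_iff.mpr hinf)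
      (by rw [← Subgroup.normal_mul, hsup, Subgroup.coe_top])
  have hKodd : ¬ 2 ∣ Nat.card K := by rw [← hc.index_eq_card]; exact odd_index P
  -- odd characters are trivial on the complement
  have hker : ∀ χ : IrrCharacter G, ¬ 2 ∣ charDegree (χ : G → ℂ) →
      ∀ k ∈ K, (χ : G → ℂ) k = (χ : G → ℂ) 1 := by
    intro χ hodd
    obtain ⟨θ, e, hθ, he, hres, hdeg⟩ := clifford_exists K χ.2
    have hcardodd : ¬ 2 ∣ (conjClass K θ).card := by
      intro h2
      apply hodd
      rw [BlkChar.isCharacter_one_eq_charDegree (isCharacter_of_irr χ.2),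
        BlkChar.isCharacter_one_eq_charDegree (isCharacter_of_irr hθ)] at hdeg
      have h3 : charDegree (χ : G → ℂ) = e * (conjClass K θ).card * charDegree θ := by
        exact_mod_cast hdeg
      rw [h3]
      exact (h2.mul_left e).mul_right _
    -- the Sylow subgroup fixes a member of the orbit
    let T := {ψ : K → ℂ // ψ ∈ conjClass K θ}
    letI : MulAction ↥(P : Subgroup G) T :=
      { smul := fun a ψ => ⟨conjChar K ((a : G)⁻¹) ψ.1, by
          obtain ⟨x, hx⟩ := (mem_conjClass K).1 ψ.2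
          exact (mem_conjClass K).2 ⟨x * (a : G)⁻¹, by rw [hx, ← conjChar_mul]⟩⟩
        one_smul := fun ψ => Subtype.ext (by
          change conjChar K (((1 : ↥(P : Subgroup G)) : G)⁻¹) ψ.1 = ψ.1
          simp [conjChar_one])
        mul_smul := fun a b ψ => Subtype.ext (by
          change conjChar K ((((a * b : ↥(P : Subgroup G))) : G)⁻¹) ψ.1 =
            conjChar K ((a : G)⁻¹) (conjChar K ((b : G)⁻¹) ψ.1)
          rw [← conjChar_mul]
          simp) }
    haveI : Finite T := inferInstance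
    have hT : ¬ 2 ∣ Nat.card T := by
      rw [Nat.card_eq_fintype_card, Fintype.card_coe]; exact hcardodd
    obtain ⟨ψ, hψ⟩ := P.isPGroup'.nonempty_fixed_point_of_prime_not_dvd_card T hT
    have hψfix : ∀ a ∈ (P : Subgroup G), conjChar K a ψ.1 = ψ.1 := fun a ha => by
      have := congrArg Subtype.val (hψ (⟨a, ha⟩⁻¹ : ↥(P : Subgroup G)))
      change conjChar K ((((⟨a, ha⟩⁻¹ : ↥(P : Subgroup G))) : G)⁻¹) ψ.1 = ψ.1 at this
      simpa using this
    obtain ⟨x, hx⟩ := (mem_conjClass K).1 ψ.2
    have hψirr : IsIrrCharacter K ψ.1 := hx ▸ conjChar_irr K x hθ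
    have hψ1 : ψ.1 = fun _ => 1 := by
      by_contra hne
      have h0 := irr_sum_eq_zero hψirr hne
      letI act : MulAction ↥(P : Subgroup G) K :=
        MulAction.compHom K ((MulAut.conjNormal : G →* MulAut K).comp (P : Subgroup G).subtype)
      have hact : ∀ (a : ↥(P : Subgroup G)) (k : K), ((a • k : K) : G) = (a : G) * k * (a : G)⁻¹ :=
        fun a k => rfl
      obtain ⟨w, hw, hw'⟩ := exists_two_mul (P := ↥(P : Subgroup G)) P.isPGroup' ψ.1
        (fun k => isCharacter_isIntegral (isCharacter_of_irr hψirr) k)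
        (fun a k => by
          have := congrFun (hψfix a a.2) k
          rw [conjChar_apply] at this
          exact (congrArg ψ.1 (Subtype.ext (hact a k))).trans this)
        (Finset.univ.erase 1)
        (fun k hk a => Finset.mem_erase.mpr ⟨fun h => (Finset.mem_erase.mp hk).1 (by
          have h1 := congrArg Subtype.val h
          rw [hact, Subgroup.coe_one, conj_eq_one_iff] at h1
          exact Subtype.ext h1), Finset.mem_univ _⟩)
        (fun k hk => by
          by_contra hall
          push Not at hall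
          apply (Finset.mem_erase.mp hk).1
          have hkN : (k : G) ∈ nor P := by
            rw [Subgroup.mem_normalizer_iff]
            intro h
            have hfixk : ∀ a ∈ (P : Subgroup G), (k : G) * a * (k : G)⁻¹ = a := fun a ha => by
              have h1 := congrArg Subtype.val (hall ⟨a, ha⟩)
              rw [hact] at h1
              rw [mul_inv_eq_iff_eq_mul, mul_inv_eq_iff_eq_mul.mp h1]
            constructor
            · intro hh
              rw [hfixk h hh]; exact hh
            · intro hh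
              have h2 := hfixk _ hh
              have h4 : (k : G) * h * (k : G)⁻¹ = h := mul_left_cancel (mul_right_cancel h2)
              rwa [h4] at hh
          have h3 : (k : G) ∈ K ⊓ nor P := ⟨k.2, hkN⟩
          rw [hinf, Subgroup.mem_bot] at h3
          exact Subtype.ext h3)
      rw [← Finset.add_sum_erase _ _ (Finset.mem_univ (1 : K)), hw',
        BlkChar.isCharacter_one_eq_charDegree (isCharacter_of_irr hψirr)] at h0
      have hint : IsIntegral ℤ (((charDegree ψ.1 : ℕ) : ℂ) / (2 : ℕ)) := by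
        have h1 : ((charDegree ψ.1 : ℕ) : ℂ) / (2 : ℕ) = -w := by
          push_cast
          linear_combination h0 / 2
        rw [h1]; exact hw.neg
      exact hKodd ((dvd_of_isIntegral_div (by norm_num) hint).trans
        (charDegree_dvd_natCard hψirr))
    have hθ1 : θ = fun _ => 1 := by
      have h1 : θ = conjChar K x⁻¹ ψ.1 := by rw [hx, ← conjChar_mul, mul_inv_cancel, conjChar_one]
      rw [h1, hψ1]
      rfl
    intro k hk
    have hconst : ∀ (g : K) (φ : K → ℂ), φ ∈ conjClass K θ → φ g = 1 := fun g φ hφ => by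
      obtain ⟨y, rfl⟩ := (mem_conjClass K).1 hφ
      rw [hθ1]; rfl
    have hk' := congrFun hres (⟨k, hk⟩ : K)
    have h1' := congrFun hres (1 : K)
    simp only [Pi.smul_apply, Finset.sum_apply, OneMemClass.coe_one] at hk' h1'
    rw [hk', h1', Finset.sum_congr rfl (hconst ⟨k, hk⟩), Finset.sum_congr rfl (hconst 1)]
  -- restriction to the normalizer
  set f : nor P →* G ⧸ K := (QuotientGroup.mk' K).comp (nor P).subtype with hf
  have hfs : Function.Surjective f := by
    intro q
    obtain ⟨g, rfl⟩ := QuotientGroup.mk'_surjective K q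
    have hg : g ∈ K ⊔ nor P := hsup ▸ Subgroup.mem_top g
    obtain ⟨k, hk, n, hn, rfl⟩ := Subgroup.mem_sup_of_normal_left.mp hg
    exact ⟨⟨n, hn⟩, by simp [hf, (QuotientGroup.eq_one_iff k).mpr hk]⟩
  set Pn := (P : Subgroup G).subgroupOf (nor P) with hPnd
  haveI : Pn.Normal := Subgroup.normal_in_normalizer
  letI := Fintype.ofFinite (nor P)
  letI := Fintype.ofFinite Pn
  have hPncard : ∃ j, Nat.card Pn = 2 ^ j :=
    IsPGroup.iff_card.mp ((P.subtype (le_nor P)).isPGroup')
  have hmap : ∀ χ : {χ : IrrCharacter G // ¬ 2 ∣ charDegree (χ : G → ℂ)},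
      ∃ θ : Target P, (∀ n : nor P, (θ.1 : nor P → ℂ) n = (χ.1 : G → ℂ) n) := by
    intro χ
    obtain ⟨ψ, hψ, hg⟩ := irr_exists_descend χ.1.2 K (hker χ.1 χ.2)
    have hirr : IsIrrCharacter (nor P) (ψ ∘ f) := isIrrCharacter_comp hψ f hfs
    have heq : ∀ n : nor P, (ψ ∘ f) n = (χ.1 : G → ℂ) n := fun n => (hg n).symm
    refine ⟨⟨⟨ψ ∘ f, hirr⟩, ?_⟩, heq⟩
    -- an odd degree character of the normalizer kills the derived subgroup
    obtain ⟨lam, e, hlam, he, hres, hdeg⟩ := clifford_exists Pn hirr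
    have hd : (ψ ∘ f) 1 = ((charDegree (χ.1 : G → ℂ) : ℕ) : ℂ) := by
      rw [heq 1, ← BlkChar.isCharacter_one_eq_charDegree (isCharacter_of_irr χ.1.2)]
      simp
    rw [hd, BlkChar.isCharacter_one_eq_charDegree (isCharacter_of_irr hlam)] at hdeg
    have h3 : charDegree (χ.1 : G → ℂ) = e * (conjClass Pn lam).card * charDegree lam := by
      exact_mod_cast hdeg
    have hlam1 : lam 1 = 1 := by
      obtain ⟨j, hj⟩ := hPncard
      obtain ⟨i, hi, hi'⟩ := (Nat.dvd_prime_pow Nat.prime_two).mp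
        (hj ▸ charDegree_dvd_natCard hlam)
      rcases Nat.eq_zero_or_pos i with rfl | hipos
      · rw [BlkChar.isCharacter_one_eq_charDegree (isCharacter_of_irr hlam), hi']; simp
      · refine absurd ?_ χ.2
        rw [h3, hi']
        exact Dvd.dvd.mul_left (dvd_pow_self 2 hipos.ne') _
    intro n hn
    have hnc : ∃ c : Pn, c ∈ commutator ↥Pn ∧ (c : nor P) = n := by
      have h1 : (commutator ↥Pn).map ((nor P).subtype.comp Pn.subtype) = der P := by
        rw [← Subgroup.map_map, commutator_def, Subgroup.map_commutator, ← MonoidHom.range_eq_map,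
          Subgroup.range_subtype, Subgroup.map_commutator, hPnd,
          Subgroup.map_subgroupOf_eq_of_le (le_nor P), der_eq]
      rw [Subgroup.mem_subgroupOf, ← h1] at hn
      obtain ⟨c, hc', hcn⟩ := hn
      exact ⟨c, hc', Subtype.ext hcn⟩
    obtain ⟨c, hcm, rfl⟩ := hnc
    have hone : ∀ φ ∈ conjClass Pn lam, φ c = 1 ∧ φ 1 = 1 := fun φ hφ => by
      obtain ⟨y, rfl⟩ := (mem_conjClass Pn).1 hφ
      have hl : IsCharacter Pn (conjChar Pn y lam) := isCharacter_of_irr (conjChar_irr Pn y hlam)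
      have h1 : conjChar Pn y lam 1 = 1 := by
        rw [conjChar_apply, ← hlam1]
        exact congrArg lam (Subtype.ext (by simp))
      exact ⟨Char.linear_eq_one_of_mem_commutator hl h1 hcm, h1⟩
    have hc' := congrFun hres c
    have h1' := congrFun hres (1 : Pn)
    simp only [Pi.smul_apply, Finset.sum_apply, OneMemClass.coe_one] at hc' h1'
    show (ψ ∘ f) (c : nor P) = (ψ ∘ f) 1
    rw [hc', h1', Finset.sum_congr rfl fun φ hφ => (hone φ hφ).1,
      Finset.sum_congr rfl fun φ hφ => (hone φ hφ).2]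
  choose Φ hΦ using hmap
  have hinj : Function.Injective Φ := by
    intro a b hab
    refine Subtype.ext (Subtype.ext (funext fun g => ?_))
    obtain ⟨k, hk, n, hn, rfl⟩ := Subgroup.mem_sup_of_normal_left.mp
      (hsup ▸ Subgroup.mem_top g : g ∈ K ⊔ nor P)
    rw [(isCharacter_mul_of_mem_ker (isCharacter_of_irr a.1.2) (hker a.1 a.2 k hk) n).1,
      (isCharacter_mul_of_mem_ker (isCharacter_of_irr b.1.2) (hker b.1 b.2 k hk) n).1]
    exact (hΦ a ⟨n, hn⟩).symm.trans (hab ▸ hΦ b ⟨n, hn⟩)
  letI := Fintype.ofFinite {χ : IrrCharacter G // ¬ 2 ∣ charDegree (χ : G → ℂ)}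
  rw [oddSum, finsum_eq_sum_of_fintype, ← sum_dt_sq P]
  calc ∑ χ : {χ : IrrCharacter G // ¬ 2 ∣ charDegree (χ : G → ℂ)}, charDegree (χ.1 : G → ℂ) ^ 2
      = ∑ θ ∈ Finset.univ.image Φ, dt θ ^ 2 := by
        rw [Finset.sum_image fun a _ b _ h => hinj h]
        refine Finset.sum_congr rfl fun χ _ => ?_
        rw [dt, charDegree, charDegree, hΦ χ 1]
        simp
    _ ≤ _ := Finset.sum_le_sum_of_subset_of_nonneg (Finset.subset_univ _)
          fun _ _ _ => Nat.zero_le _

end Cfsg.Agent.OddSquareSum
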